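import Cfsg.Agent.H558.Deg4Data.Down

/-!
# Matrices over a finite field with few eigenvalues
-/

set_option autoImplicit false

namespace Cfsg.Agent.H558.Orth

open Matrix Module Cfsg.Agent.H558.Deg4Data

section sup

variable {k V : Type*} [Field k] [AddCommGroup V] [Module k V] [FiniteDimensional k V]

theorem finrank_biSup {κ : Type*} [DecidableEq κ] {E : κ → Submodule k V} (h : iSupIndep E) (s : Finset κ) :
    finrank k (⨆ i ∈ s, E i : Submodule k V) = ∑ i ∈ s, finrank k (E i) := by
  induction s using Finset.induction with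
  | empty => simp
  | insert a s ha ih =>
    rw [Finset.iSup_insert, Finset.sum_insert ha, ← ih]
    have h1 := Submodule.finrank_sup_add_finrank_inf_eq (E a) (⨆ i ∈ s, E i)
    have h2 : Disjoint (E a) (⨆ i ∈ s, E i) := h.disjoint_biSup (y := (s : Set κ)) (by simpa using ha)
    rw [disjoint_iff.1 h2, finrank_bot, add_zero] at h1
    exact h1

theorem sum_finrank_le {κ : Type*} [Fintype κ] {E : κ → Submodule k V} (h : iSupIndep E) {R : Submodule k V}
    (hR : ∀ i, E i ≤ R) : ∑ i, finrank k (E i) ≤ finrank k R := by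
  classical
  rw [← finrank_biSup h Finset.univ]
  exact Submodule.finrank_mono (iSup₂_le fun i _ => hR i)

theorem eigenspace_le_range {T : End k V} {μ : k} (hμ : μ ≠ 1) : T.eigenspace μ ≤ LinearMap.range (T - 1) := by
  intro v hv
  rw [Module.End.mem_eigenspace_iff] at hv
  refine ⟨(μ - 1)⁻¹ • v, ?_⟩
  rw [map_smul, LinearMap.sub_apply, Module.End.one_apply, hv]
  have h2 : μ • v - v = (μ - 1) • v := by rw [sub_smul, one_smul]
  rw [h2, smul_smul, inv_mul_cancel₀ (sub_ne_zero.2 hμ), one_smul]

theorem sum_eigenspace_le {κ : Type*} [Fintype κ] (T : End k V) {l : κ → k} (hl : Function.Injective l)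
    (h1 : ∀ i, l i ≠ 1) : ∑ i, finrank k (T.eigenspace (l i)) ≤ finrank k (LinearMap.range (T - 1)) :=
  sum_finrank_le (T.eigenspaces_iSupIndep.comp hl) fun i => eigenspace_le_range (h1 i)

/-- several eigenvalues of the central commutator -/
theorem rank_ge2 [IsAlgClosed k] {r : ℕ} (hr : r.Prime) (hrk : (r : k) ≠ 0) (A B C : Module.End k V) (hC : C ^ r = 1)
    (hAB : A * B = C * (B * A)) (hCA : C * A = A * C) (hCB : C * B = B * C) (hA : A ^ r = 1) (hB : B ^ r = 1)
    {κ : Type*} [Fintype κ] {l : κ → k} (hl : Function.Injective l) (h1 : ∀ i, l i ≠ 1)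
    (he : ∀ i, C.eigenspace (l i) ≠ ⊥) :
    Fintype.card κ * (r - 1) ≤ finrank k (LinearMap.range (A - 1)) := by
  classical
  have hmem : ∀ (D : End k V), C * D = D * C → ∀ i, ∀ v ∈ C.eigenspace (l i), D v ∈ C.eigenspace (l i) := by
    intro D hD i v hv
    rw [Module.End.mem_eigenspace_iff] at hv ⊢
    rw [← Module.End.mul_apply, hD, Module.End.mul_apply, hv, map_smul]
  let R : κ → Submodule k V := fun i =>
    (LinearMap.range (A.restrict (hmem A hCA i) - 1)).map (C.eigenspace (l i)).subtype
  have hRle : ∀ i, R i ≤ C.eigenspace (l i) := fun i => Submodule.map_subtype_le _ _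
  have hRr : ∀ i, R i ≤ LinearMap.range (A - 1) := by
    rintro i _ ⟨_, ⟨u, rfl⟩, rfl⟩
    exact ⟨(u : V), rfl⟩
  have hRf : ∀ i, r - 1 ≤ finrank k (R i) := by
    intro i
    have h2 : finrank k (R i) = finrank k (LinearMap.range (A.restrict (hmem A hCA i) - 1)) :=
      Submodule.finrank_map_subtype_eq _ _
    rw [h2]
    have h3 := rank_ge hr hrk (A.restrict (hmem A hCA i)) (B.restrict (hmem B hCB i)) (C.restrict (hmem C rfl i))
      ?_ ?_ ?_ ?_ ?_ ?_ ?_
    · omega
    · rw [Module.End.pow_restrict]
      ext v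
      simp [hC]
    · intro h0
      apply he i
      rw [eq_bot_iff]
      intro v hv
      have h4 := congrArg Subtype.val (LinearMap.congr_fun h0 ⟨v, hv⟩)
      change C v = v at h4
      rw [Module.End.mem_eigenspace_iff.1 hv] at h4
      have h5 : (l i - 1) • v = 0 := by rw [sub_smul, one_smul, h4, sub_self]
      exact (smul_eq_zero.1 h5).resolve_left (sub_ne_zero.2 (h1 i))
    · ext v
      exact congrArg (fun T : End k V => T (v : V)) hAB
    · ext v
      exact congrArg (fun T : End k V => T (v : V)) hCA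
    · ext v
      exact congrArg (fun T : End k V => T (v : V)) hCB
    · rw [Module.End.pow_restrict]
      ext v
      simp [hA]
    · rw [Module.End.pow_restrict]
      ext v
      simp [hB]
  have hind : iSupIndep R := (C.eigenspaces_iSupIndep.comp hl).mono hRle
  have h2 := sum_finrank_le hind hRr
  have h3 : ∑ _i : κ, (r - 1) ≤ ∑ i, finrank k (R i) := Finset.sum_le_sum fun i _ => hRf i
  rw [Finset.sum_const, Finset.card_univ, smul_eq_mul] at h3
  exact h3.trans h2

end sup

section frob

variable {F : Type*} [Field F] [Finite F] {ι : Type*} [Fintype ι] [DecidableEq ι]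

/-- the Frobenius map of the algebraic closure -/
theorem exists_frob {q : ℕ} (hq : Nat.card F = q) : ∃ φ : AlgebraicClosure F →+* AlgebraicClosure F,
    (∀ a, φ a = a ^ q) ∧ ∀ a : F, φ (algebraMap F (AlgebraicClosure F) a) = algebraMap F (AlgebraicClosure F) a := by
  obtain ⟨p, hp⟩ := CharP.exists F
  have hpp : p.Prime := CharP.char_is_prime F p
  have := Fact.mk hpp
  have := Fintype.ofFinite F
  obtain ⟨n, -, hn⟩ := FiniteField.card F p
  have hchar : CharP (AlgebraicClosure F) p :=
    charP_of_injective_algebraMap (algebraMap F (AlgebraicClosure F)).injective p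
  have hq' : q = p ^ (n : ℕ) := by rw [← hq, Nat.card_eq_fintype_card, hn]
  refine ⟨iterateFrobenius (AlgebraicClosure F) p n, fun a => ?_, fun a => ?_⟩
  · rw [iterateFrobenius_def, hq']
  · rw [iterateFrobenius_def, ← hq', ← hq, Nat.card_eq_fintype_card, ← map_pow, FiniteField.pow_card]

theorem eigen_frob {q : ℕ} (hq : Nat.card F = q) (M : Matrix ι ι F) {v : ι → AlgebraicClosure F}
    {μ : AlgebraicClosure F} (h : (M.map (algebraMap F (AlgebraicClosure F))) *ᵥ v = μ • v) :
    (M.map (algebraMap F (AlgebraicClosure F))) *ᵥ (fun i => v i ^ q) = μ ^ q • (fun i => v i ^ q) := by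
  obtain ⟨φ, h1, h2⟩ := exists_frob hq
  ext i
  have h3 := congrArg φ (congrFun h i)
  simp only [Matrix.mulVec, dotProduct, Matrix.map_apply, Pi.smul_apply, smul_eq_mul] at h3 ⊢
  rw [map_sum, map_mul, h1, h1] at h3
  rw [← h3]
  refine Finset.sum_congr rfl fun j _ => ?_
  rw [map_mul, h2, h1]

/-- **Few eigenvalues.** -/
theorem pow_eq_one_of_few {q : ℕ} (hq : Nat.card F = q) (M : Matrix ι ι F) {m : ℕ} (hM : M ^ m = 1) (hm : (m : F) ≠ 0)
    (hfew : ∀ (u : Fin 3 → ι → AlgebraicClosure F) (l : Fin 3 → AlgebraicClosure F), (∀ i, u i ≠ 0) →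
      (∀ i, (M.map (algebraMap F (AlgebraicClosure F))) *ᵥ u i = l i • u i) → (∀ i, l i ≠ 1) →
      Function.Injective l → False) : M ^ (q ^ 2 - 1) = 1 := by
  classical
  obtain ⟨φ, hφ, -⟩ := exists_frob hq
  have hq0 : 0 < q := by rw [← hq]; exact Nat.card_pos
  set L := AlgebraicClosure F
  let T : End L (ι → L) := Matrix.toLin' (M.map (algebraMap F L))
  have hTpow : ∀ n : ℕ, T ^ n = Matrix.toLin' ((M ^ n).map (algebraMap F L)) := by
    intro n
    rw [Matrix.map_pow, Matrix.toLin'_pow]
  have hTm : T ^ m = 1 := by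
    rw [hTpow, hM, Matrix.map_one _ (map_zero _) (map_one _), Matrix.toLin'_one]; rfl
  have hmL : (m : L) ≠ 0 := by
    intro h0
    apply hm
    have h1 : algebraMap F L (m : F) = 0 := by rw [map_natCast, h0]
    exact (map_eq_zero _).1 h1
  obtain ⟨b, l, hl⟩ := Cfsg.Agent.H574.Deg4.exists_eigenbasis T hTm hmL
  have hpow : ∀ i n, (T ^ n) (b i) = l i ^ n • b i := by
    intro i n
    induction n with
    | zero => simp
    | succ n ih => rw [pow_succ', Module.End.mul_apply, ih, map_smul, hl, smul_smul, pow_succ]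
  have hone : ∀ i, l i ^ m = 1 := by
    intro i
    have h1 := hpow i m
    rw [hTm, Module.End.one_apply] at h1
    have h2 : (l i ^ m - 1) • b i = 0 := by rw [sub_smul, one_smul, ← h1, sub_self]
    exact sub_eq_zero.1 ((smul_eq_zero.1 h2).resolve_right (b.ne_zero i))
  have hm0 : m ≠ 0 := by rintro rfl; exact hm Nat.cast_zero
  have hne : ∀ i, l i ≠ 0 := by
    intro i h0
    have h1 := hone i
    rw [h0, zero_pow hm0] at h1
    exact zero_ne_one h1
  have key : ∀ i, l i ^ (q ^ 2 - 1) = 1 := by
    intro i
    by_cases h1 : l i = 1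
    · rw [h1, one_pow]
    have hsq : l i ^ q ^ 2 = l i := by
      have hinj : Function.Injective (fun a : L => a ^ q) := fun a b h => φ.injective (by rw [hφ, hφ]; exact h)
      have hnz : ∀ v : ι → L, v ≠ 0 → (fun i => v i ^ q) ≠ 0 := by
        intro v hv h0
        apply hv
        ext j
        have h2 := congrFun h0 j
        exact pow_eq_zero_iff (by omega) |>.1 h2
      have hn1 : ∀ a : L, a ≠ 1 → a ^ q ≠ 1 := by
        intro a ha h0
        exact ha (hinj (by simpa using h0))
      by_contra hcon
      refine hfew ![b i, fun j => b i j ^ q, fun j => (b i j ^ q) ^ q] ![l i, l i ^ q, (l i ^ q) ^ q] ?_ ?_ ?_ ?_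
      · intro j
        fin_cases j
        · exact b.ne_zero i
        · exact hnz _ (b.ne_zero i)
        · exact hnz _ (hnz _ (b.ne_zero i))
      · have e0 : (M.map (algebraMap F L)) *ᵥ b i = l i • b i := hl i
        have e1 := eigen_frob hq M e0
        have e2 := eigen_frob hq M e1
        intro j
        fin_cases j
        · exact e0
        · exact e1
        · exact e2
      · intro j
        fin_cases j
        · exact h1
        · exact hn1 _ h1
        · exact hn1 _ (hn1 _ h1)
      · have n01 : l i ≠ l i ^ q := by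
          intro h
          apply hcon
          rw [pow_two, pow_mul, ← h, ← h]
        have n02 : l i ≠ (l i ^ q) ^ q := by
          intro h
          apply hcon
          rw [pow_two, pow_mul, ← h]
        have n12 : l i ^ q ≠ (l i ^ q) ^ q := fun h => n01 (hinj h)
        intro a c hac
        fin_cases a <;> fin_cases c
        · rfl
        · exact absurd hac n01
        · exact absurd hac n02
        · exact absurd hac.symm n01
        · rfl
        · exact absurd hac n12
        · exact absurd hac.symm n02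
        · exact absurd hac.symm n12
        · rfl
    have h2 : l i ^ (q ^ 2 - 1) * l i = 1 * l i := by
      rw [← pow_succ, Nat.sub_add_cancel (Nat.one_le_pow _ _ hq0), hsq, one_mul]
    exact mul_right_cancel₀ (hne i) h2
  have hT : T ^ (q ^ 2 - 1) = 1 := by
    apply b.ext
    intro i
    rw [hpow, key, one_smul, Module.End.one_apply]
  rw [hTpow] at hT
  have h3 : (M ^ (q ^ 2 - 1)).map (algebraMap F L) = 1 := by
    apply Matrix.toLin'.injective
    rw [hT, Matrix.toLin'_one]; rfl
  apply Matrix.map_injective (algebraMap F L).injective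
  show (M ^ (q ^ 2 - 1)).map (algebraMap F L) = (1 : Matrix ι ι F).map (algebraMap F L)
  rw [h3, Matrix.map_one _ (map_zero _) (map_one _)]

end frob

end Cfsg.Agent.H558.Orth
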