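import Cfsg.Agent.H558.Orth.Iso
import Cfsg.Agent.H556.OmQR

/-!
# `Omega` as a group of isometries; fixed vectors
-/

set_option autoImplicit false
set_option linter.unusedSectionVars false

namespace Cfsg.Agent.H558.Orth

open Module QuadraticMap Cfsg.Agent.H167.OP Cfsg.Agent.H170.HL Cfsg.Agent.H170.HL.OmRow Cfsg.Agent.H556.Om
open Cfsg.Agent.H558.Deg4Data

section mono

variable {F : Type*} [Field F] {V : Type*} [AddCommGroup V] [Module F V] {f : V →ₗ[F] V →ₗ[F] F}
variable {J J' : Type*} [Fintype J] [DecidableEq J] [Fintype J'] [DecidableEq J']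

theorem mono_comm {e : J → V} {e' : J' → V} {s : J → F} {σ : J → J} {s' : J' → F} {σ' : J' → J'}
    (hF : Frame f e) (h2 : (2 : F) ≠ 0) (hsym : ∀ u v, f u v = f v u) (ho : ∀ i j, f (e i) (e' j) = 0) :
    mono f e s σ * mono f e' s' σ' = mono f e' s' σ' * mono f e s σ := by
  have h1 : ∀ j, mono f e' s' σ' (e j) = e j := fun j => mono_orth fun i => by rw [hsym, ho]
  refine ext_frame hF h2 (fun j => ?_) fun w hw => ?_
  · rw [Module.End.mul_apply, Module.End.mul_apply, h1, mono_e hF h2, map_smul, h1]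
  · rw [Module.End.mul_apply, Module.End.mul_apply, mono_orth (e := e) hw]
    apply mono_orth
    intro j
    rw [mono_apply, map_add, hw j, zero_add, map_sum]
    refine Finset.sum_eq_zero fun i _ => ?_
    rw [map_smul, map_smul, map_sub, map_smul, ho, ho, smul_zero, sub_zero, smul_zero, smul_zero]

theorem sg_sub (h2 : (2 : F) ≠ 0) {e : J → V} {i j : J} (hij : i ≠ j) (u : V) :
    u - mono f e (sg F i j) id u = f (e i) u • e i + f (e j) u • e j := by
  rw [mono_apply]
  have h1 : ∀ k, f (e k) u • ((2 : F)⁻¹ • (sg F i j k • e (id k) - e k)) =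
      (if k = i then -(f (e k) u • e k) else 0) + (if k = j then -(f (e k) u • e k) else 0) := by
    intro k
    have h3 : (2 : F)⁻¹ • ((-1 : F) • e k - e k) = -e k := by
      have : (-1 : F) • e k - e k = (2 : F) • (-e k) := by module
      rw [this, smul_smul, inv_mul_cancel₀ h2, one_smul]
    by_cases h4 : k = i
    · subst h4
      have h5 : sg F k j k = -1 := if_pos (Or.inl rfl)
      rw [if_pos rfl, if_neg hij, h5, id, h3, add_zero, smul_neg]
    · by_cases h6 : k = j
      · subst h6
        have h5 : sg F i k k = -1 := if_pos (Or.inr rfl)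
        rw [if_pos rfl, if_neg h4, h5, id, h3, zero_add, smul_neg]
      · have h5 : sg F i j k = 1 := if_neg (by tauto)
        rw [if_neg h4, if_neg h6, h5, id, one_smul, sub_self, smul_zero, smul_zero, add_zero]
  rw [Finset.sum_congr rfl fun k _ => h1 k, Finset.sum_add_distrib, Finset.sum_ite_eq', Finset.sum_ite_eq',
    if_pos (Finset.mem_univ _), if_pos (Finset.mem_univ _)]
  abel

end mono

section small

variable {F : Type*} [Field F] [Finite F]

theorem matrix_small {q : ℕ} (hq : Nat.card F = q) {n : ℕ} (hn : n ≤ 2) (A : Matrix (Fin n) (Fin n) F) {m : ℕ}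
    (hA : A ^ m = 1) (hm : (m : F) ≠ 0) (hcop : m.Coprime (q ^ 2 - 1)) : A = 1 := by
  have h1 : A ^ (q ^ 2 - 1) = 1 := by
    refine pow_eq_one_of_few hq A hA hm ?_
    intro u l hu hl _ hinj
    let T : End (AlgebraicClosure F) (Fin n → AlgebraicClosure F) :=
      Matrix.toLin' (A.map (algebraMap F (AlgebraicClosure F)))
    have hev : ∀ i, T.HasEigenvector (l i) (u i) := fun i => ⟨Module.End.mem_eigenspace_iff.2 (hl i), hu i⟩
    have h2 := Module.End.eigenvectors_linearIndependent' T l hinj u hev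
    have h3 := h2.fintype_card_le_finrank
    rw [Fintype.card_fin, Module.finrank_fin_fun] at h3
    omega
  have h2 := Nat.dvd_gcd (orderOf_dvd_of_pow_eq_one hA) (orderOf_dvd_of_pow_eq_one h1)
  rw [hcop, Nat.dvd_one] at h2
  exact orderOf_eq_one_iff.1 h2

theorem endo_small {q : ℕ} (hq : Nat.card F = q) {M : Type*} [AddCommGroup M] [Module F M] [FiniteDimensional F M]
    (hn : finrank F M ≤ 2) (T : End F M) {m : ℕ} (hT : T ^ m = 1) (hm : (m : F) ≠ 0)
    (hcop : m.Coprime (q ^ 2 - 1)) : T = 1 := by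
  let b := Module.finBasis F M
  have h1 : LinearMap.toMatrix b b T = 1 := by
    refine matrix_small hq hn _ ?_ hm hcop
    rw [LinearMap.toMatrix_pow, hT]
    exact LinearMap.toMatrix_one b
  apply (LinearMap.toMatrix b b).injective
  rw [h1]
  exact (LinearMap.toMatrix_one b).symm

end small

variable {F : Type*} [Field F] {ι : Type} [Fintype ι] [DecidableEq ι] {Q : QuadraticForm F (ι → F)}

/-- the Gram matrix -/
noncomputable def gram (Q : QuadraticForm F (ι → F)) : Matrix ι ι F := LinearMap.toMatrix₂' F (polarBilin Q)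

theorem polar_eq (u v : ι → F) : polarBilin Q u v = u ⬝ᵥ (gram Q).mulVec v := by
  have h1 : Matrix.toLinearMap₂' F (gram Q) = polarBilin Q := Matrix.toLinearMap₂'_toMatrix' (polarBilin Q)
  conv_lhs => rw [← h1]
  rw [Matrix.toLinearMap₂'_apply']

theorem matrix_ext_dot {A B : Matrix ι ι F} (h : ∀ u v : ι → F, u ⬝ᵥ A.mulVec v = u ⬝ᵥ B.mulVec v) : A = B := by
  ext i j
  have h1 := h (Pi.single i 1) (Pi.single j 1)
  rw [Matrix.mulVec_single_one, Matrix.mulVec_single_one, single_dotProduct, single_dotProduct, one_mul, one_mul] at h1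
  exact h1

theorem isoRep (hQ : GoodQ Q) : IsoRep (inc (⇑Q)) (gram Q) where
  inj := inc_injective
  sym := by
    apply matrix_ext_dot
    intro u v
    rw [← polar_eq, polar_symm, polar_eq, Matrix.mulVec_transpose, dotProduct_comm, ← Matrix.dotProduct_mulVec]
  nd := by
    intro h0
    obtain ⟨v, hv, hv0⟩ := Matrix.exists_mulVec_eq_zero_iff.2 h0
    apply hv
    apply hQ.nd.2
    intro u
    rw [polar_eq, hv0, dotProduct_zero]
  inv := by
    intro g
    apply matrix_ext_dot
    intro u v
    rw [← polar_eq, ← polar_omega g u v, polar_eq, rep_apply, rep_apply, ← Matrix.mulVec_mulVec, ← Matrix.mulVec_mulVec,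
      Matrix.mulVec_transpose, dotProduct_comm, ← Matrix.dotProduct_mulVec, dotProduct_comm]

variable [Finite F] {q r : ℕ}

/-- the conditions on the prime `r` -/
structure PO (F : Type*) [Field F] (q r : ℕ) : Prop where
  card : Nat.card F = q
  two : (2 : F) ≠ 0
  rr : r.Prime
  r5 : 5 ≤ r
  rF : (r : F) ≠ 0
  rq : ¬ r ∣ q ^ 2 - 1

theorem PO.oHyp (h : PO F q r) (hQ : GoodQ Q) : OHyp q r (inc (⇑Q)) (gram Q) :=
  ⟨isoRep hQ, h.card, h.two, h.rr, h.r5, h.rF, h.rq⟩

theorem PO.cast_ne (h : PO F q r) (k : ℕ) : ((r ^ k : ℕ) : F) ≠ 0 := by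
  rw [Nat.cast_pow]; exact pow_ne_zero _ h.rF

theorem PO.cop (h : PO F q r) (k : ℕ) : (r ^ k).Coprime (q ^ 2 - 1) :=
  Nat.Coprime.pow_left _ ((Nat.Prime.coprime_iff_not_dvd h.rr).2 h.rq)

variable {J : Type*} [Fintype J] [DecidableEq J] {e : J → ι → F}

/-- an `r`-element fixing many vectors is trivial -/
theorem eq_one_of_fix (hr : PO F q r) (hQ : GoodQ Q) (hF : Frame (polarBilin Q) e) {h : Cfsg.Omega F (⇑Q)} {k : ℕ}
    (hk : h ^ r ^ k = 1) (hfix : ∀ j, rep (inc (⇑Q)) h (e j) = e j) (hc : Fintype.card ι ≤ Fintype.card J + 3) :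
    h = 1 := by
  refine eq_one_of_rank_le_three (hr.oHyp hQ) hk ?_
  have h1 := LinearMap.finrank_range_add_finrank_ker (inc (⇑Q) h - 1).mulVecLin
  rw [Module.finrank_pi] at h1
  have h2 : Fintype.card J ≤ finrank F (LinearMap.ker (inc (⇑Q) h - 1).mulVecLin) := by
    rw [← finrank_span_eq_card (hF.linearIndependent hr.two)]
    apply Submodule.finrank_mono
    rw [Submodule.span_le]
    rintro _ ⟨j, rfl⟩
    rw [SetLike.mem_coe, LinearMap.mem_ker, Matrix.mulVecLin_apply, Matrix.sub_mulVec, Matrix.one_mulVec, sub_eq_zero]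
    exact hfix j
  unfold Matrix.rank
  omega

/-- an `r`-element commuting with a sign change at two places fixes the two vectors -/
theorem fix_of_comm (hr : PO F q r) (hF : Frame (polarBilin Q) e) {i j : J} (hij : i ≠ j)
    {h g : Cfsg.Omega F (⇑Q)} {k : ℕ} (hk : h ^ r ^ k = 1) (hg : rep (inc (⇑Q)) g = mono (polarBilin Q) e (sg F i j) id)
    (hc : h * g = g * h) : rep (inc (⇑Q)) h (e i) = e i ∧ rep (inc (⇑Q)) h (e j) = e j := by
  set ρ := rep (inc (⇑Q)) with hρ
  let M : Submodule F (ι → F) := Module.End.eigenspace (ρ g) (-1)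
  have hM : ∀ v ∈ M, ρ h v ∈ M := by
    intro v hv
    rw [Module.End.mem_eigenspace_iff] at hv ⊢
    rw [← mul_ap, ← hc, mul_ap, hv, map_smul]
  have hle : M ≤ Submodule.span F {e i, e j} := by
    intro v hv
    rw [Module.End.mem_eigenspace_iff, hg] at hv
    have h1 := sg_sub (f := polarBilin Q) hr.two hij (e := e) v
    rw [hv] at h1
    have h3 : v = (2 : F)⁻¹ • (polarBilin Q (e i) v • e i + polarBilin Q (e j) v • e j) := by
      rw [← h1]
      have : v - (-1 : F) • v = (2 : F) • v := by module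
      rw [this, smul_smul, inv_mul_cancel₀ hr.two, one_smul]
    rw [h3]
    refine Submodule.smul_mem _ _ (Submodule.add_mem _ (Submodule.smul_mem _ _ (Submodule.subset_span (by simp)))
      (Submodule.smul_mem _ _ (Submodule.subset_span (by simp))))
  have hdim : finrank F M ≤ 2 := (Submodule.finrank_mono hle).trans (finrank_pair_le _ _)
  have hT : ((ρ h).restrict hM) = 1 := by
    refine endo_small hr.card hdim _ (m := r ^ k) ?_ (hr.cast_ne k) (hr.cop k)
    rw [Module.End.pow_restrict]
    ext v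
    have h1 : (ρ h) ^ r ^ k = 1 := by rw [← map_pow, hk, map_one]
    simp [h1]
  have hfix : ∀ v ∈ M, ρ h v = v := fun v hv => congrArg Subtype.val (LinearMap.congr_fun hT ⟨v, hv⟩)
  have hei : ∀ l, l = i ∨ l = j → e l ∈ M := by
    intro l hl
    rw [Module.End.mem_eigenspace_iff, hg, mono_e hF hr.two]
    have : sg F i j l = -1 := if_pos hl
    rw [this]; rfl
  exact ⟨hfix _ (hei i (Or.inl rfl)), hfix _ (hei j (Or.inr rfl))⟩

/-- the elements of order four -/
theorem cenR_four [Finite (Cfsg.Omega F (⇑Q))] (hr : PO F q r) (hQ : GoodQ Q) {e : A4 → ι → F}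
    (hF : Frame (polarBilin Q) e) {s : A4 → F} {a : A4} (hs : ∀ j, s j * s (a + j) = -1) (ha : a + a = 0)
    {x : Cfsg.Omega F (⇑Q)}
    (hx : rep (inc (⇑Q)) x = mono (polarBilin Q) e s (a + ·)) : CenR r x := by
  have h2 := hr.two
  have hxx : rep (inc (⇑Q)) (x * x) = mono (polarBilin Q) e (fun _ => -1) id := by
    rw [map_mul, hx, mono_mul hF h2]
    congr 1
    · funext j; exact hs j
    · funext j
      show a + (a + j) = j
      rw [← add_assoc, ha, zero_add]
  have h4 : x ^ 4 = 1 := by
    apply rep_inj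
    have : x ^ 4 = (x * x) * (x * x) := by simp only [pow_succ, pow_zero, one_mul, mul_assoc]
    rw [this, map_mul, hxx, mono_mul hF h2, map_one]
    refine mono_one hF h2 (fun j => ?_) fun j => rfl
    ring
  have hsub : ∀ v, rep (inc (⇑Q)) (x * x) v - v = -∑ j, polarBilin Q (e j) v • e j := by
    intro v
    rw [hxx, mono_apply, add_sub_cancel_left, ← Finset.sum_neg_distrib]
    refine Finset.sum_congr rfl fun j _ => ?_
    have : (-1 : F) • e (id j) - e j = (2 : F) • (-e j) := by
      show (-1 : F) • e j - e j = _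
      module
    have h' : (2 : F)⁻¹ • ((2 : F) • (-e j)) = -e j := by rw [smul_smul, inv_mul_cancel₀ h2, one_smul]
    rw [this, h', smul_neg]
  refine cenR_iso (hr.oHyp hQ) h4 ?_ ?_
  · have h1 : LinearMap.range (inc (⇑Q) (x * x) - 1).mulVecLin ≤ Submodule.span F (Set.range e) := by
      rintro _ ⟨v, rfl⟩
      rw [Matrix.mulVecLin_apply, Matrix.sub_mulVec, Matrix.one_mulVec, ← rep_apply, hsub]
      refine Submodule.neg_mem _ (Submodule.sum_mem _ fun j _ => Submodule.smul_mem _ _ (Submodule.subset_span ⟨j, rfl⟩))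
    have h3 := Submodule.finrank_mono h1
    have h5 := finrank_range_le_card (R := F) e
    have h6 : Fintype.card A4 = 4 := rfl
    unfold Matrix.rank
    unfold Set.finrank at h5
    omega
  · intro v hv
    rw [← rep_apply] at hv
    have h1 : rep (inc (⇑Q)) (x * x) v = v := by rw [mul_ap, hv, map_neg, hv, neg_neg]
    have h3 := hsub v
    rw [h1, sub_self] at h3
    have h5 : ∀ j, polarBilin Q (e j) v = 0 := fun j =>
      hF.eq_zero h2 (c := fun j => polarBilin Q (e j) v) (neg_eq_zero.1 h3.symm) j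
    have h6 : rep (inc (⇑Q)) x v = v := by rw [hx]; exact mono_orth h5
    rw [h6] at hv
    have h7 : (2 : F) • v = 0 := by
      have : (2 : F) • v = v + v := by module
      rw [this]
      nth_rewrite 1 [hv]
      exact neg_add_cancel v
    exact (smul_eq_zero.1 h7).resolve_left h2

end Cfsg.Agent.H558.Orth
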